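import Mathlib
import Cfsg.Agent.H540.E8C.Main
import Cfsg.Agent.H942.CB.Spec

/-!
# S5919: elements of order 5 of `E₈(3)`: values of the Brauer character of the adjoint module
-/

set_option autoImplicit false
set_option linter.unusedSectionVars false
set_option maxRecDepth 100000

namespace Cfsg.Agent.H990.S62

open Cfsg Cfsg.Lie Cfsg.Lie.ChevalleyDatum
open Cfsg.Agent.ChevalleyStructure Cfsg.Agent.ChevalleyStructure.CoxeterGeomTypes
open Cfsg.Agent.H942.E8Tab Cfsg.Agent.H942.E8Alc Cfsg.Agent.H942.ValsChar Cfsg.Agent.H942.E8Val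
open Cfsg.Agent.H942.CB Cfsg.Agent.H540.E8C
open Cfsg.Agent.H944.RootVals Cfsg.Agent.H944.Tab Cfsg.Agent.H944.Kac
open Cfsg.Agent.H657 IsLocalRing Module

theorem check5 : allAlc th8 5 (fun Y => bif invB 5 3 R8 Y then decide (cnt 5 1 0 Y ∈ [20, 22, 30, 120]) else true) =
    true := by
  decide +kernel

theorem gen5 : ∀ u : ZMod 5, u ≠ 0 → ∃ k < 4, u = (3 : ZMod 5) ^ k := by decide

/-- **Elements of order dividing 5.** -/
theorem val5 (V : ValuationSubring ℂ) [CharP (ResidueField V) 3] {G : Type*} [Group G]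
    (F : G →* ↥(chevE8.group (ZMod 3))) {g : G} (hg : g ^ 5 = 1) (hne : F g ≠ 1) :
    ∃ t : ℤ, (t = -2 ∨ t = 3 ∨ t = 23) ∧ (∀ d : ℕ, ¬ 5 ∣ d → bc 3 (adj V F) (g ^ d) = t) ∧
      (t = 23 → ∃ x' : ↥(chevE8.group (ZMod 3)), x' ^ 2 = 1 ∧ x' ≠ 1 ∧ Commute (F g) x' ∧
        ∀ v : chevE8.Idx → ZMod 3, (mt (F g)).mulVec v = v → (mt x').mulVec v = v) := by
  have : Fact (Nat.Prime 5) := ⟨by norm_num⟩
  obtain ⟨Y, ξ, h, hT⟩ := exists_specT (V := V) F (N := 5) (by norm_num) (by norm_num) hg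
  have h1 := allAlc_spec th8 5 _ (by decide) check5 Y h.len h.alc
  have h2 : invB 5 3 R8 Y = true := invB_of (by norm_num) tab8 len8 h.frob
  rw [h2, cond_true, decide_eq_true_iff] at h1
  have hus : ∀ u : ZMod 5, u ≠ 0 → ms chevE8 8 (vecL 5 Y) = (ms chevE8 8 (vecL 5 Y)).map (fun a => u * a) := by
    intro u hu
    obtain ⟨k, -, hk⟩ := gen5 u hu
    rw [hk]
    exact map_mul_pow h.frob k
  have hval : ∀ d : ℕ, ¬ 5 ∣ d → 4 * bc 3 (adj V F) (g ^ d) = 10 * (cnt 5 1 0 Y : ℂ) - 208 := by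
    intro d hd
    have := bc_prime h hus hd
    push_cast at this
    linear_combination this
  have hcard := ord_prime h
  simp only [List.mem_cons, List.not_mem_nil, or_false] at h1
  rcases h1 with h1 | h1 | h1 | h1
  · refine ⟨-2, by simp, fun d hd => ?_, fun h => by norm_num at h⟩
    have := hval d hd
    rw [h1] at this
    push_cast at this ⊢
    linear_combination this / 4
  · refine ⟨3, by simp, fun d hd => ?_, fun h => by norm_num at h⟩
    have := hval d hd
    rw [h1] at this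
    push_cast at this ⊢
    linear_combination this / 4
  · refine ⟨23, by simp, fun d hd => ?_, fun _ => five hg h1 h hT⟩
    have := hval d hd
    rw [h1] at this
    push_cast at this ⊢
    linear_combination this / 4
  · exact absurd (hcard.2 h1) hne

end Cfsg.Agent.H990.S62
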